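import Mathlib

/-!
The faithful irreducible module over two elements of an extension of an elementary abelian group
of order nine by a dihedral group of order eight.
-/

set_option autoImplicit false
set_option linter.unusedSectionVars false

namespace Cfsg.Agent.SmallModule

open DihedralGroup

/-- The shift of the reflections. -/
def shift : DihedralGroup 4 →* DihedralGroup 4 where
  toFun x := match x with
    | r i => r i
    | sr i => sr (i + 1)
  map_one' := rfl
  map_mul' := by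
    rintro (i | i) (j | j) <;> revert i j <;> decide

theorem shift_bijective : Function.Bijective shift := by
  refine ⟨?_, ?_⟩
  · rintro (i | i) (j | j) h <;> revert h <;> revert i j <;> decide
  · rintro (i | i)
    · exact ⟨r i, rfl⟩
    · exact ⟨sr (i - 1), show sr (i - 1 + 1) = sr i by rw [sub_add_cancel]⟩

/-- The four group containing `sr 1`. -/
def fourOne : Subgroup (DihedralGroup 4) where
  carrier := {x | x = 1 ∨ x = r 2 ∨ x = sr 1 ∨ x = sr 3}
  one_mem' := Or.inl rfl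
  mul_mem' := by
    rintro a b (rfl | rfl | rfl | rfl) (rfl | rfl | rfl | rfl) <;>
      simp only [Set.mem_setOf_eq] <;> decide
  inv_mem' := by
    rintro a (rfl | rfl | rfl | rfl) <;> simp only [Set.mem_setOf_eq] <;> decide

theorem mem_fourOne {x : DihedralGroup 4} :
    x ∈ fourOne ↔ x = 1 ∨ x = r 2 ∨ x = sr 1 ∨ x = sr 3 := Iff.rfl

theorem card_fourOne : Nat.card fourOne = 4 := by
  have h : (fourOne : Set (DihedralGroup 4)) = {1, r 2, sr 1, sr 3} := by
    ext x; simp [mem_fourOne]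
  rw [← SetLike.coe_sort_coe, h, Nat.card_coe_set_eq,
    Set.ncard_insert_of_notMem (by simp; decide), Set.ncard_insert_of_notMem (by simp),
    Set.ncard_pair (by decide)]

theorem exponent_two_four (B : Subgroup (DihedralGroup 4)) (hc : Nat.card B = 4)
    (h2 : ∀ b ∈ B, b ^ 2 = 1) : B = fourOne ∨ (∀ x ∈ B, x = 1 ∨ x = r 2 ∨ x = sr 0 ∨ x = sr 2) := by
  have key : ∀ x : DihedralGroup 4, x ^ 2 = 1 →
      x = 1 ∨ x = r 2 ∨ x = sr 0 ∨ x = sr 1 ∨ x = sr 2 ∨ x = sr 3 := by
    rintro (i | i) <;> simp only [pow_two] <;> revert i <;> decide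
  by_cases h : sr 0 ∈ B ∨ sr 2 ∈ B
  · right
    have hmix : ∀ a b : ZMod 4, (a = 0 ∨ a = 2) → (b = 1 ∨ b = 3) →
        (sr a * sr b : DihedralGroup 4) ^ 2 ≠ 1 := by
      simp only [pow_two]; decide
    intro x hx
    rcases key x (h2 x hx) with e | e | e | e | e | e
    · exact Or.inl e
    · exact Or.inr (Or.inl e)
    · exact Or.inr (Or.inr (Or.inl e))
    · exfalso
      subst e
      rcases h with h | h
      · exact hmix 0 1 (Or.inl rfl) (Or.inl rfl) (h2 _ (mul_mem h hx))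
      · exact hmix 2 1 (Or.inr rfl) (Or.inl rfl) (h2 _ (mul_mem h hx))
    · exact Or.inr (Or.inr (Or.inr e))
    · exfalso
      subst e
      rcases h with h | h
      · exact hmix 0 3 (Or.inl rfl) (Or.inr rfl) (h2 _ (mul_mem h hx))
      · exact hmix 2 3 (Or.inr rfl) (Or.inr rfl) (h2 _ (mul_mem h hx))
  · left
    push Not at h
    refine Subgroup.eq_of_le_of_card_ge (fun x hx => mem_fourOne.2 ?_) (by rw [card_fourOne, hc])
    rcases key x (h2 x hx) with e | e | e | e | e | e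
    · exact Or.inl e
    · exact Or.inr (Or.inl e)
    · exact absurd (e ▸ hx) h.1
    · exact Or.inr (Or.inr (Or.inl e))
    · exact absurd (e ▸ hx) h.2
    · exact Or.inr (Or.inr (Or.inr e))

variable {S : Type*} [Group S] {M : Type*} [AddCommGroup M] [Module (ZMod 2) M]

theorem add_self (x : M) : x + x = 0 := by
  rw [← two_nsmul, ← Nat.cast_smul_eq_nsmul (ZMod 2), show ((2 : ℕ) : ZMod 2) = 0 from rfl,
    zero_smul]

theorem eq_of_add_eq_zero {x y : M} (h : x + y = 0) : x = y := by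
  calc x = x + (y + y) := by rw [add_self, add_zero]
    _ = y := by rw [← add_assoc, h, zero_add]

/-- Hypotheses on the frame. -/
structure Frame (A : Subgroup S) (φ : DihedralGroup 4 →* S) (a : S) : Prop where
  mem : a ∈ A
  ne : a ≠ 1
  fix : φ (sr 0) * a * (φ (sr 0))⁻¹ = a

theorem module_structure [Finite M] (A : Subgroup S) (hAexp : ∀ a ∈ A, a ^ 3 = 1)
    (hAcomm : ∀ a ∈ A, ∀ b ∈ A, a * b = b * a) (φ : DihedralGroup 4 →* S)
    (hinv : ∀ x ∈ A, φ (r 2) * x * (φ (r 2))⁻¹ = x⁻¹) (hAn : A.Normal) (a : S)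
    (hfr : Frame A φ a)
    (hgen : ∀ H : Subgroup S, a ∈ H → φ (r 1) * a * (φ (r 1))⁻¹ ∈ H → φ (r 1) ∈ H →
      φ (sr 0) ∈ H → H = ⊤)
    (ρ : Representation (ZMod 2) S M) (hfaith : Function.Injective ρ)
    (hirr : ∀ N : Submodule (ZMod 2) M, (∀ s : S, ∀ m ∈ N, ρ s m ∈ N) → N = ⊥ ∨ N = ⊤)
    (hv : ∃ v : M, v ≠ 0 ∧ ρ a v = v) :
    Nat.card M = 16 ∧ Nat.card {m : M // ∀ b ∈ fourOne.map φ, ρ b m = m} = 2 ∧
      ∃ u w : M, u ≠ 0 ∧ w ≠ 0 ∧ u ≠ w ∧
        ∀ b ∈ ({1, r 2, sr 0, sr 2} : Set (DihedralGroup 4)), ρ (φ b) u = u ∧ ρ (φ b) w = w := by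
  classical
  obtain ⟨haA, ha1, hfa⟩ := hfr
  set R := φ (r 1) with hR
  set f := φ (sr 0) with hf
  set z := φ (r 2) with hz
  set b := R * a * R⁻¹ with hb
  have hmul : ∀ (x y : S) (m : M), ρ (x * y) m = ρ x (ρ y m) := fun x y m => by
    rw [map_mul, Module.End.mul_apply]
  have hone : ∀ m : M, ρ 1 m = m := fun m => by rw [map_one, Module.End.one_apply]
  have hinj : ∀ (x : S) (m : M), ρ x m = 0 → m = 0 := fun x m h => by
    have h1 := congrArg (ρ x⁻¹) h
    rwa [← hmul, inv_mul_cancel, hone, map_zero] at h1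
  have hRR : R * R = z := by rw [hR, hz, ← map_mul]; rfl
  have hzz : z * z = 1 := by rw [hz, ← map_mul]; exact map_one φ
  have hff : f * f = 1 := by rw [hf, ← map_mul]; exact map_one φ
  have hfR : f * R = R⁻¹ * f := by rw [hf, hR, ← map_inv, ← map_mul, ← map_mul]; rfl
  have hbA : b ∈ A := hAn.conj_mem a haA R
  have hRb : R * b * R⁻¹ = a⁻¹ := by
    rw [← hinv a haA, hb, ← hRR]; group
  have hfb : f * b * f⁻¹ = b⁻¹ := by
    have h1 : f * b * f⁻¹ = R⁻¹ * (f * a * f⁻¹) * R := by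
      have h2 : R⁻¹ * f = f * R := hfR.symm
      calc f * b * f⁻¹ = (f * R) * a * (f * R)⁻¹ := by rw [hb]; group
        _ = R⁻¹ * (f * a * f⁻¹) * R := by rw [hfR]; group
    rw [h1, hfa]
    have h3 : R⁻¹ * a * R = R * (z⁻¹ * a * z) * R⁻¹ := by rw [← hRR]; group
    have h4 : z⁻¹ * a * z = a⁻¹ := by
      rw [show z⁻¹ = z from (eq_inv_of_mul_eq_one_left hzz).symm]
      calc z * a * z = z * a * z⁻¹ := by rw [show z⁻¹ = z from (eq_inv_of_mul_eq_one_left hzz).symm]
        _ = a⁻¹ := hinv a haA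
    rw [h3, h4, hb]; group
  have hswap : ∀ (x y g : S) (m : M), g * x * g⁻¹ = y → ρ g (ρ x m) = ρ y (ρ g m) :=
    fun x y g m h => by rw [← hmul, ← hmul, ← h, inv_mul_cancel_right]
  have hfixinv : ∀ (x : S) (m : M), ρ x m = m → ρ x⁻¹ m = m := fun x m h => by
    conv_lhs => rw [← h]
    rw [← hmul, inv_mul_cancel, hone]
  have htop : ∀ W : Submodule (ZMod 2) M, W ≠ ⊥ → (∀ m ∈ W, ρ a m ∈ W) → (∀ m ∈ W, ρ b m ∈ W) →
      (∀ m ∈ W, ρ R m ∈ W) → (∀ m ∈ W, ρ f m ∈ W) → W = ⊤ := by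
    intro W hW ha hb' hR' hf'
    let H : Subgroup S :=
      { carrier := {g | (∀ m ∈ W, ρ g m ∈ W) ∧ ∀ m ∈ W, ρ g⁻¹ m ∈ W}
        one_mem' := ⟨fun m hm => by rwa [hone], fun m hm => by rwa [inv_one, hone]⟩
        mul_mem' := fun {x y} hx hy => ⟨fun m hm => by rw [hmul]; exact hx.1 _ (hy.1 m hm),
          fun m hm => by rw [mul_inv_rev, hmul]; exact hy.2 _ (hx.2 m hm)⟩
        inv_mem' := fun {x} hx => ⟨hx.2, by rw [inv_inv]; exact hx.1⟩ }
    have hback : ∀ g : S, (∀ m ∈ W, ρ g m ∈ W) → g ∈ H := by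
      intro g hg
      have hmap : W.map (ρ g) = W := by
        have hle : W.map (ρ g) ≤ W := by rintro _ ⟨m, hm, rfl⟩; exact hg m hm
        exact Submodule.eq_of_le_of_finrank_eq hle
          (Submodule.equivMapOfInjective (ρ g)
            ((injective_iff_map_eq_zero (ρ g)).2 (hinj g)) W).finrank_eq.symm
      refine ⟨hg, fun m hm => ?_⟩
      rw [← hmap] at hm
      obtain ⟨n, hn, rfl⟩ := hm
      rwa [← hmul, inv_mul_cancel, hone]
    have hH := hgen H (hback a ha) (hback b hb') (hback R hR') (hback f hf')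
    exact (hirr W fun s m hm => (hH ▸ Subgroup.mem_top s : s ∈ H).1 m hm).resolve_left hW
  -- no common fixed vector
  have hab : ∀ m : M, ρ a m = m → ρ b m = m → m = 0 := by
    intro m hma hmb
    by_contra hm
    let W : Submodule (ZMod 2) M := LinearMap.ker (ρ a - 1) ⊓ LinearMap.ker (ρ b - 1)
    have hmem : ∀ w, w ∈ W ↔ ρ a w = w ∧ ρ b w = w := fun w => by
      simp [W, sub_eq_zero]
    have hW : W = ⊤ := htop W ((Submodule.ne_bot_iff W).2 ⟨m, (hmem m).2 ⟨hma, hmb⟩, hm⟩)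
      (fun w hw => by rw [((hmem w).1 hw).1]; exact hw)
      (fun w hw => by rw [((hmem w).1 hw).2]; exact hw)
      (fun w hw => by
        obtain ⟨h1, h2⟩ := (hmem w).1 hw
        refine (hmem _).2 ⟨?_, ?_⟩
        · rw [← hswap b⁻¹ a R w (by rw [show R * b⁻¹ * R⁻¹ = (R * b * R⁻¹)⁻¹ by group, hRb,
            inv_inv]), hfixinv b w h2]
        · rw [← hswap a b R w rfl, h1])
      (fun w hw => by
        obtain ⟨h1, h2⟩ := (hmem w).1 hw
        refine (hmem _).2 ⟨?_, ?_⟩
        · rw [← hswap a a f w hfa, h1]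
        · rw [← hswap b⁻¹ b f w (by rw [show f * b⁻¹ * f⁻¹ = (f * b * f⁻¹)⁻¹ by group, hfb,
            inv_inv]), hfixinv b w h2])
    refine ha1 (hfaith ?_)
    rw [map_one]
    exact LinearMap.ext fun w => ((hmem w).1 (hW ▸ Submodule.mem_top)).1
  set s := f * z with hs
  have hfz : f * z = z * f := by rw [hf, hz, ← map_mul, ← map_mul]; rfl
  have hRz : R * z = z * R := by rw [← hRR, mul_assoc]
  have hss : s * s = 1 := by
    rw [hs]
    calc f * z * (f * z) = f * (z * f) * z := by group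
      _ = (f * f) * (z * z) := by rw [← hfz]; group
      _ = 1 := by rw [hff, hzz, one_mul]
  have hsa : s * a * s⁻¹ = a⁻¹ := by
    rw [hs, show f * z * a * (f * z)⁻¹ = f * (z * a * z⁻¹) * f⁻¹ by group, hinv a haA,
      show f * a⁻¹ * f⁻¹ = (f * a * f⁻¹)⁻¹ by group, hfa]
  have hsb : s * b * s⁻¹ = b := by
    rw [hs, show f * z * b * (f * z)⁻¹ = f * (z * b * z⁻¹) * f⁻¹ by group, hinv b hbA,
      show f * b⁻¹ * f⁻¹ = (f * b * f⁻¹)⁻¹ by group, hfb, inv_inv]
  have hsf : s * f = f * s := by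
    rw [hs, mul_assoc, ← hfz]
  have hza : ∀ m : M, ρ a m = m → ρ a (ρ z m) = ρ z m := fun m hm => by
    rw [← hswap a⁻¹ a z m (by rw [hinv _ (inv_mem haA), inv_inv]), hfixinv a m hm]
  have hfa' : ∀ m : M, ρ a m = m → ρ a (ρ f m) = ρ f m := fun m hm => by
    rw [← hswap a a f m hfa, hm]
  have hbfix : ∀ m : M, ρ a m = m → ρ a (ρ b m) = ρ b m := fun m hm => by
    rw [← hmul, hAcomm a haA b hbA, hmul, hm]
  have hRfix : ∀ m : M, ρ a m = m → ρ b (ρ R m) = ρ R m := fun m hm => by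
    rw [← hswap a b R m rfl, hm]
  have hRa : ∀ m : M, ρ a (ρ R m) = ρ R (ρ b⁻¹ m) := fun m => by
    rw [hswap b⁻¹ a R m (by rw [show R * b⁻¹ * R⁻¹ = (R * b * R⁻¹)⁻¹ by group, hRb, inv_inv])]
  have hfRm : ∀ m : M, ρ f (ρ R m) = ρ R (ρ z (ρ f m)) := fun m => by
    rw [← hmul, ← hmul, ← hmul, hfR]
    congr 2
    rw [← hRR, mul_assoc, ← mul_assoc]
    have : R⁻¹ = R * (R * R) := by
      rw [eq_comm, eq_inv_iff_mul_eq_one]
      calc R * (R * R) * R = z * z := by rw [← hRR]; group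
        _ = 1 := hzz
    rw [this]
  -- a pair of planes
  let pl : Submodule (ZMod 2) M → Submodule (ZMod 2) M := fun N => N ⊔ N.map (ρ R)
  have hplane : ∀ N : Submodule (ZMod 2) M, N ≠ ⊥ → (∀ m ∈ N, ρ a m = m) →
      (∀ m ∈ N, ρ b m ∈ N) → (∀ m ∈ N, ρ z m ∈ N) → (∀ m ∈ N, ρ f m ∈ N) → pl N = ⊤ := by
    intro N hN hNa hNb hNz hNf
    have hNb' : ∀ m ∈ N, ρ b⁻¹ m ∈ N := fun m hm => by
      have hb3 : b⁻¹ = b * b := by
        rw [inv_eq_iff_mul_eq_one, ← hAexp b hbA, pow_three]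
      rw [hb3, hmul]; exact hNb _ (hNb m hm)
    refine htop _ (ne_bot_of_le_ne_bot hN le_sup_left) ?_ ?_ ?_ ?_ <;>
      intro m hm <;> obtain ⟨x, hx, _, ⟨y, hy, rfl⟩, rfl⟩ := Submodule.mem_sup.1 hm <;>
      rw [map_add]
    · rw [hNa x hx, hRa]
      exact Submodule.add_mem_sup hx ⟨_, hNb' y hy, rfl⟩
    · rw [hRfix y (hNa y hy)]
      exact Submodule.add_mem_sup (hNb x hx) ⟨y, hy, rfl⟩
    · rw [← hmul, hRR, add_comm]
      exact Submodule.add_mem_sup (hNz y hy) ⟨x, hx, rfl⟩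
    · rw [hfRm]
      exact Submodule.add_mem_sup (hNf x hx) ⟨_, hNz _ (hNf y hy), rfl⟩
  have hsplit : ∀ x y : M, ρ a x = x → ρ a y = y → ρ a (x + ρ R y) = x + ρ R y → y = 0 := by
    intro x y hx hy h
    rw [map_add, hx] at h
    exact hinj R y (hab _ (add_left_cancel h) (hRfix y hy))
  obtain ⟨v₀, hv₀, hv₀a⟩ := hv
  let Ns : Submodule (ZMod 2) M := LinearMap.ker (ρ a - 1) ⊓ LinearMap.ker (ρ s - 1)
  have hNs : ∀ w, w ∈ Ns ↔ ρ a w = w ∧ ρ s w = w := fun w => by
    simp [Ns, sub_eq_zero]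
  have hsfixa : ∀ m, ρ a m = m → ρ a (ρ s m) = ρ s m := fun m hm => by
    rw [hs, hmul]; exact hfa' _ (hza m hm)
  have hNsne : Ns ≠ ⊥ := by
    rw [Submodule.ne_bot_iff]
    by_cases h : v₀ + ρ s v₀ = 0
    · exact ⟨v₀, (hNs _).2 ⟨hv₀a, (eq_of_add_eq_zero h).symm⟩, hv₀⟩
    · refine ⟨_, (hNs _).2 ⟨?_, ?_⟩, h⟩
      · rw [map_add, hv₀a, hsfixa _ hv₀a]
      · rw [map_add, ← hmul, hss, hone, add_comm]
  have hsz : s * z = z * s := by
    rw [hs, ← mul_assoc z f z, ← hfz]
  have hNstop := hplane Ns hNsne (fun m hm => ((hNs m).1 hm).1)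
    (fun m hm => (hNs _).2 ⟨hbfix m ((hNs m).1 hm).1, by
      rw [hswap b b s m hsb, ((hNs m).1 hm).2]⟩)
    (fun m hm => (hNs _).2 ⟨hza m ((hNs m).1 hm).1, by
      rw [← hmul, hsz, hmul, ((hNs m).1 hm).2]⟩)
    (fun m hm => (hNs _).2 ⟨hfa' m ((hNs m).1 hm).1, by
      rw [← hmul, hsf, hmul, ((hNs m).1 hm).2]⟩)
  have hstriv : ∀ m, ρ a m = m → ρ z m = ρ f m := by
    intro m hm
    obtain ⟨x, hx, _, ⟨y, hy, rfl⟩, rfl⟩ := Submodule.mem_sup.1
      (hNstop ▸ Submodule.mem_top : m ∈ pl Ns)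
    have hy0 := hsplit x y ((hNs x).1 hx).1 ((hNs y).1 hy).1 hm
    rw [hy0, map_zero, add_zero]
    have h1 := congrArg (ρ f) ((hNs x).1 hx).2
    rwa [hs, ← hmul, ← mul_assoc, hff, one_mul] at h1
  obtain ⟨v, hv, hva, hvf⟩ : ∃ v : M, v ≠ 0 ∧ ρ a v = v ∧ ρ f v = v := by
    by_cases h : v₀ + ρ f v₀ = 0
    · exact ⟨v₀, hv₀, hv₀a, (eq_of_add_eq_zero h).symm⟩
    · exact ⟨_, h, by rw [map_add, hv₀a, hfa' _ hv₀a],
        by rw [map_add, ← hmul, hff, hone, add_comm]⟩
  set w := ρ b v with hw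
  have hwa : ρ a w = w := hbfix v hva
  have hb3 : b * (b * b) = 1 := by rw [← hAexp b hbA, pow_three]
  have hbw : ρ b w = v + w := by
    refine (eq_of_add_eq_zero ?_).symm
    refine hab _ ?_ ?_
    · rw [map_add, map_add, hva, hwa, hbfix w hwa]
    · rw [map_add, map_add, ← hw, hw, ← hmul b b, ← hmul b (b * b), hb3, hone]
      abel
  have hfw : ρ f w = v + w := by
    have h1 : b⁻¹ = b * b := inv_eq_of_mul_eq_one_right hb3
    rw [hw, hswap b b⁻¹ f v hfb, hvf, h1, hmul, ← hw, hbw]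
  let P := Submodule.span (ZMod 2) ({v, w} : Set M)
  have hvP : v ∈ P := Submodule.subset_span (Set.mem_insert _ _)
  have hwP : w ∈ P := Submodule.subset_span (Set.mem_insert_of_mem _ rfl)
  have hPa : ∀ m ∈ P, ρ a m = m := fun m hm => by
    obtain ⟨c, d, rfl⟩ := Submodule.mem_span_pair.1 hm
    rw [map_add, map_smul, map_smul, hva, hwa]
  have hPf : ∀ m ∈ P, ρ f m ∈ P := fun m hm => by
    obtain ⟨c, d, rfl⟩ := Submodule.mem_span_pair.1 hm
    rw [map_add, map_smul, map_smul, hvf, hfw]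
    exact P.add_mem (P.smul_mem _ hvP) (P.smul_mem _ (P.add_mem hvP hwP))
  have hPtop : pl P = ⊤ := hplane P ((Submodule.ne_bot_iff _).2 ⟨v, hvP, hv⟩) hPa
    (fun m hm => by
      obtain ⟨c, d, rfl⟩ := Submodule.mem_span_pair.1 hm
      rw [map_add, map_smul, map_smul, ← hw, hbw]
      exact P.add_mem (P.smul_mem _ hwP) (P.smul_mem _ (P.add_mem hvP hwP)))
    (fun m hm => by rw [hstriv m (hPa m hm)]; exact hPf m hm) hPf
  let Φ : P × P →ₗ[ZMod 2] M := P.subtype.coprod ((ρ R).comp P.subtype)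
  have hΦ : Function.Bijective Φ := by
    constructor
    · rw [injective_iff_map_eq_zero]
      rintro ⟨⟨x, hx⟩, ⟨y, hy⟩⟩ h
      simp only [Φ, LinearMap.coprod_apply, Submodule.subtype_apply, LinearMap.comp_apply] at h
      have hy0 : y = 0 := hsplit x y (hPa x hx) (hPa y hy) (by rw [h, map_zero])
      subst hy0
      rw [map_zero, add_zero] at h
      subst h
      rfl
    · intro m
      obtain ⟨x, hx, _, ⟨y, hy, rfl⟩, rfl⟩ := Submodule.mem_sup.1
        (hPtop ▸ Submodule.mem_top : m ∈ pl P)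
      exact ⟨(⟨x, hx⟩, ⟨y, hy⟩), rfl⟩
  have hind : LinearIndependent (ZMod 2) ![v, w] := by
    rw [LinearIndependent.pair_iff]
    intro c d hcd
    have h2 : ∀ t : ZMod 2, t = 0 ∨ t = 1 := by decide
    have hwne : w ≠ 0 := fun e => hv (hinj b v e)
    rcases h2 c with rfl | rfl <;> rcases h2 d with rfl | rfl
    · exact ⟨rfl, rfl⟩
    · simp at hcd; exact absurd hcd hwne
    · simp at hcd; exact absurd hcd hv
    · simp at hcd
      exact absurd (hab v hva (eq_of_add_eq_zero hcd).symm) hv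
  have hPcard : Nat.card P = 4 := by
    rw [Module.natCard_eq_pow_finrank (K := ZMod 2), Nat.card_zmod]
    have := finrank_span_eq_card hind
    rw [Matrix.range_cons, Matrix.range_cons, Matrix.range_empty, Set.union_empty,
      Set.singleton_union] at this
    rw [this]; rfl
  have hcard : Nat.card M = 16 := by
    rw [← Nat.card_congr (Equiv.ofBijective Φ hΦ), Nat.card_prod, hPcard]
  have hzv : ρ z v = v := by rw [hstriv v hva, hvf]
  have hfour : ∀ m : M, (∀ x ∈ fourOne.map φ, ρ x m = m) ↔ m = 0 ∨ m = v + ρ R v := by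
    intro m
    constructor
    · intro hm
      obtain ⟨⟨⟨x, hx⟩, ⟨y, hy⟩⟩, rfl⟩ := hΦ.2 m
      have hzm := hm z ⟨r 2, mem_fourOne.2 (Or.inr (Or.inl rfl)), rfl⟩
      have hgm := hm (f * R) ⟨sr 1, mem_fourOne.2 (Or.inr (Or.inr (Or.inl rfl))), by
        rw [hf, hR, ← map_mul]; rfl⟩
      simp only [Φ, LinearMap.coprod_apply, Submodule.subtype_apply, LinearMap.comp_apply] at *
      have hzR : ρ z (ρ R y) = ρ R (ρ z y) := by rw [← hmul, ← hRz, hmul]
      rw [map_add, hzR, hstriv x (hPa x hx), hstriv y (hPa y hy)] at hzm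
      have hxy : ρ f x + x = ρ R (y + ρ f y) := by
        rw [map_add]
        calc ρ f x + x = (ρ f x + ρ R (ρ f y)) + (x + ρ R (ρ f y)) := by
              rw [show (ρ f x + ρ R (ρ f y)) + (x + ρ R (ρ f y)) =
                (ρ f x + x) + (ρ R (ρ f y) + ρ R (ρ f y)) by abel, add_self, add_zero]
          _ = ρ R y + ρ R (ρ f y) := by
              rw [hzm, show x + ρ R y + (x + ρ R (ρ f y)) =
                (x + x) + (ρ R y + ρ R (ρ f y)) by abel, add_self, zero_add]
      have hfy : y + ρ f y = 0 := by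
        refine hinj R _ (hab _ ?_ (hRfix _ (by rw [map_add, hPa y hy, hfa' _ (hPa y hy)])))
        rw [← hxy, map_add, hPa x hx, hfa' _ (hPa x hx)]
      obtain ⟨c, d, rfl⟩ := Submodule.mem_span_pair.1 hy
      have hd : d = 0 := by
        rcases (show d = 0 ∨ d = 1 from (by decide : ∀ t : ZMod 2, t = 0 ∨ t = 1) d) with h | h
        · exact h
        · exfalso
          subst h
          simp only [one_smul, map_add, map_smul, hvf, hfw] at hfy
          refine hv ?_
          rwa [show c • v + w + (c • v + (v + w)) = (c • v + c • v) + (w + w) + v by abel,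
            add_self, add_self, add_zero, zero_add] at hfy
      subst hd
      simp only [zero_smul, add_zero] at hy hgm hfy ⊢
      have hgx : ρ (f * R) (x + ρ R (c • v)) = ρ (f * R) x + c • v := by
        rw [map_add, hmul f R (ρ R (c • v)), ← hmul R R, hRR, map_smul, hzv, map_smul, hvf]
      rw [hgx, hmul, hfRm, hstriv _ (hfa' x (hPa x hx)), ← hmul f f, hff, hone] at hgm
      have hxc : x = c • v := by
        refine eq_of_add_eq_zero ?_
        have h5 : x + c • v = ρ R (x + c • v) := by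
          rw [map_add]
          calc x + c • v = (x + ρ R (c • v)) + (c • v + ρ R (c • v)) := by
                rw [show x + ρ R (c • v) + (c • v + ρ R (c • v)) =
                  (x + c • v) + (ρ R (c • v) + ρ R (c • v)) by abel, add_self, add_zero]
            _ = ρ R x + ρ R (c • v) := by
                rw [← hgm, show ρ R x + c • v + (c • v + ρ R (c • v)) =
                  (c • v + c • v) + (ρ R x + ρ R (c • v)) by abel, add_self, zero_add]
        refine hab _ ?_ ?_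
        · rw [map_add, hPa x hx, map_smul, hva]
        · rw [h5]
          exact hRfix _ (by rw [map_add, hPa x hx, map_smul, hva])
      subst hxc
      rcases (show c = 0 ∨ c = 1 from (by decide : ∀ t : ZMod 2, t = 0 ∨ t = 1) c) with h | h <;>
        subst h
      · left; simp
      · right; simp
    · rintro (rfl | rfl) x ⟨e, he, rfl⟩
      · exact map_zero _
      · have hz' : ρ z (v + ρ R v) = v + ρ R v := by
          rw [map_add, hzv, ← hmul, ← hRz, hmul, hzv]
        have hg' : ρ (f * R) (v + ρ R v) = v + ρ R v := by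
          rw [hmul, map_add, ← hmul R R, hRR, hzv, map_add, hfRm, hvf, hzv, add_comm]
        rcases mem_fourOne.1 he with rfl | rfl | rfl | rfl
        · rw [map_one, hone]
        · exact hz'
        · rw [show φ (sr 1) = f * R by rw [hf, hR, ← map_mul]; rfl, hg']
        · rw [show φ (sr 3) = f * R * z by rw [hf, hR, hz, ← map_mul, ← map_mul]; rfl, hmul,
            hz', hg']
  refine ⟨hcard, ?_, ?_⟩
  · rw [Nat.card_congr (Equiv.subtypeEquivRight hfour)]
    show Nat.card {m : M | m = 0 ∨ m = v + ρ R v} = 2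
    have hne : (0 : M) ≠ v + ρ R v := fun e => hv (hsplit v v hva hva (by rw [← e, map_zero]))
    rw [show {m : M | m = 0 ∨ m = v + ρ R v} = ({0, v + ρ R v} : Set M) from rfl,
      Nat.card_coe_set_eq, Set.ncard_pair hne]
  · refine ⟨v, ρ R v, hv, fun e => hv (hinj R v e), fun e => ?_, fun x hx => ?_⟩
    · exact hv (hab v hva (by rw [e]; exact hRfix v hva))
    · have hzR : ρ z (ρ R v) = ρ R v := by rw [← hmul, ← hRz, hmul, hzv]
      have hfR' : ρ f (ρ R v) = ρ R v := by rw [hfRm, hvf, hzv]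
      rcases hx with rfl | rfl | rfl | rfl
      · rw [map_one]; exact ⟨hone v, hone _⟩
      · exact ⟨hzv, hzR⟩
      · exact ⟨hvf, hfR'⟩
      · rw [show φ (sr 2) = f * z by rw [hf, hz, ← map_mul]; rfl]
        exact ⟨by rw [hmul, hzv, hvf], by rw [hmul, hzR, hfR']⟩

/-- Groups `A X` with `A` of order nine and `X` dihedral of order eight. -/
theorem nine_dihedral [Finite S] [Finite M] (A : Subgroup S) (hAn : A.Normal)
    (hAexp : ∀ a ∈ A, a ^ 3 = 1) (hAcomm : ∀ a ∈ A, ∀ b ∈ A, a * b = b * a)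
    (hA9 : Nat.card A = 9) (hAC : Subgroup.centralizer (A : Set S) = A)
    (φ₀ : DihedralGroup 4 →* S) (hφ : Function.Injective φ₀) (hAX : A ⊔ φ₀.range = ⊤)
    (ρ : Representation (ZMod 2) S M) (hfaith : Function.Injective ρ)
    (hirr : ∀ N : Submodule (ZMod 2) M, (∀ s : S, ∀ m ∈ N, ρ s m ∈ N) → N = ⊥ ∨ N = ⊤)
    (hM : Nontrivial M) :
    Nat.card M = 16 ∧
      ∃! B : Subgroup S, B ≤ φ₀.range ∧ Nat.card B = 4 ∧ (∀ b ∈ B, b ^ 2 = 1) ∧
        Nat.card {m : M // ∀ b ∈ B, ρ b m = m} = 2 := by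
  classical
  have hD8 : Nat.card φ₀.range = 8 := by
    rw [← Nat.card_congr (MonoidHom.ofInjective hφ).toEquiv, DihedralGroup.nat_card]
  have hdisj : A ⊓ φ₀.range = ⊥ := Subgroup.inf_eq_bot_of_coprime (by rw [hA9, hD8]; decide)
  have hfaithA : ∀ x : DihedralGroup 4, (∀ a ∈ A, φ₀ x * a * (φ₀ x)⁻¹ = a) → x = 1 := by
    intro x hx
    have h1 : φ₀ x ∈ A ⊓ φ₀.range := by
      refine ⟨?_, ⟨x, rfl⟩⟩
      rw [SetLike.mem_coe, ← hAC]
      exact Subgroup.mem_centralizer_iff.2 fun a ha => (mul_inv_eq_iff_eq_mul.1 (hx a ha)).symm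
    rw [hdisj, Subgroup.mem_bot] at h1
    exact hφ (by rw [h1, map_one])
  set z := φ₀ (r 2) with hz
  have hzz : z * z = 1 := by rw [hz, ← map_mul]; exact map_one φ₀
  have hzinv : z⁻¹ = z := (eq_inv_of_mul_eq_one_left hzz).symm
  set R₀ := φ₀ (r 1) with hR₀
  have hRR : R₀ * R₀ = z := by rw [hR₀, hz, ← map_mul]; rfl
  have hconj : ∀ (g x y : S), g * (x * y) * g⁻¹ = (g * x * g⁻¹) * (g * y * g⁻¹) := fun g x y => by
    group
  let C : Subgroup S := A ⊓ Subgroup.centralizer {z}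
  have hmemC : ∀ x, x ∈ C ↔ x ∈ A ∧ z * x * z⁻¹ = x := fun x => by
    simp only [C, Subgroup.mem_inf, Subgroup.mem_centralizer_singleton_iff]
    refine and_congr_right fun _ => ?_
    rw [mul_inv_eq_iff_eq_mul]
    exact eq_comm
  let D : Subgroup S :=
    { carrier := {x | x ∈ A ∧ z * x * z⁻¹ = x⁻¹}
      one_mem' := ⟨one_mem A, by group⟩
      mul_mem' := fun {x y} hx hy => ⟨mul_mem hx.1 hy.1, by
        rw [hconj, hx.2, hy.2, mul_inv_rev, hAcomm _ (inv_mem hx.1) _ (inv_mem hy.1)]⟩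
      inv_mem' := fun {x} hx => ⟨inv_mem hx.1, by
        rw [show z * x⁻¹ * z⁻¹ = (z * x * z⁻¹)⁻¹ by group, hx.2]⟩ }
  have hmemD : ∀ x, x ∈ D ↔ x ∈ A ∧ z * x * z⁻¹ = x⁻¹ := fun x => Iff.rfl
  have hzR : z * R₀ = R₀ * z := by rw [← hRR, mul_assoc]
  have hline : ∀ H : Subgroup S, H ≤ A → Nat.card H = 3 → (∀ x ∈ H, R₀ * x * R₀⁻¹ ∈ H) →
      ∀ x ∈ H, z * x * z⁻¹ = x := by
    intro H hHA hH hinv x hx
    by_cases hx1 : x = 1
    · rw [hx1]; group
    have hox : orderOf x = 3 := orderOf_eq_prime (hAexp x (hHA hx)) hx1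
    have hzp : Subgroup.zpowers x = H := Subgroup.eq_of_le_of_card_ge
      (Subgroup.zpowers_le.2 hx) (by rw [hH, Nat.card_zpowers, hox])
    obtain ⟨n, hn⟩ := mem_powers_iff_mem_zpowers.2 (hzp.symm ▸ hinv x hx :
      R₀ * x * R₀⁻¹ ∈ Subgroup.zpowers x)
    simp only at hn
    have hn' : x ^ (n % 3) = R₀ * x * R₀⁻¹ := by rw [← hn, ← hox, pow_mod_orderOf]
    have hzn : z * x * z⁻¹ = x ^ (n % 3 * (n % 3)) := by
      rw [pow_mul, hn', conj_pow, hn', ← hRR]; group
    rw [hzn]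
    have h3 : n % 3 < 3 := Nat.mod_lt _ (by norm_num)
    rcases (show n % 3 = 0 ∨ n % 3 = 1 ∨ n % 3 = 2 by omega) with h | h | h <;> rw [h] at hn' ⊢
    · exfalso
      refine hx1 ?_
      rw [pow_zero, eq_comm, mul_inv_eq_one] at hn'
      exact mul_eq_left.1 hn'
    · rw [one_mul, pow_one]
    · rw [show 2 * 2 = 3 + 1 from rfl, pow_add, hAexp x (hHA hx), one_mul, pow_one]
  have hzA : ∀ x ∈ A, z * x * z⁻¹ = x⁻¹ := by
    have hCbot : C = ⊥ := by
      by_contra hC
      have hDle : D ≤ A := fun x hx => hx.1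
      have hCD : ∀ x, x ∈ C → x ∈ D → x = 1 := fun x h1 h2 => by
        have h3 : x = x⁻¹ := ((hmemC x).1 h1).2.symm.trans h2.2
        have h4 : x * x = 1 := by
          nth_rw 2 [h3]; exact mul_inv_cancel x
        calc x = x * (x * x) := by rw [h4, mul_one]
          _ = x ^ 3 := (pow_three x).symm
          _ = 1 := hAexp x ((hmemC x).1 h1).1
      have hDne : D ≠ ⊥ := by
        intro hD
        have : (r 2 : DihedralGroup 4) = 1 := hfaithA (r 2) fun x hx => by
          have hd : x * (z * x * z⁻¹)⁻¹ ∈ D := by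
            refine ⟨mul_mem hx (inv_mem (hAn.conj_mem x hx z)), ?_⟩
            rw [show z * (x * (z * x * z⁻¹)⁻¹) * z⁻¹ =
              (z * x * z⁻¹) * ((z * z) * x * (z * z)⁻¹)⁻¹ by group, hzz]
            group
          rw [hD, Subgroup.mem_bot, mul_inv_eq_one] at hd
          exact hd.symm
        exact absurd this (by decide)
      have hcard3 : ∀ H : Subgroup S, H ≤ A → H ≠ ⊥ → H ≠ A → Nat.card H = 3 := by
        intro H hH h1 h2
        have hd := Subgroup.card_dvd_of_le hH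
        rw [hA9] at hd
        have hne1 : Nat.card H ≠ 1 := fun e => h1 (Subgroup.card_eq_one.1 e)
        have hne9 : Nat.card H ≠ 9 := fun e => h2 (Subgroup.eq_of_le_of_card_ge hH (by omega))
        have : Nat.card H ≤ 9 := Nat.le_of_dvd (by norm_num) hd
        interval_cases Nat.card H <;> omega
      have hinvD : ∀ x ∈ D, R₀ * x * R₀⁻¹ ∈ D := fun x hx => by
        refine ⟨hAn.conj_mem x hx.1 R₀, ?_⟩
        rw [show z * (R₀ * x * R₀⁻¹) * z⁻¹ = (z * R₀) * x * (z * R₀)⁻¹ by group, hzR,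
          show R₀ * z * x * (R₀ * z)⁻¹ = R₀ * (z * x * z⁻¹) * R₀⁻¹ by group, hx.2]
        group
      obtain ⟨d, hd, hd1⟩ := D.bot_or_exists_ne_one.resolve_left hDne
      have hDA : D ≠ A := fun e => hC ((Subgroup.eq_bot_iff_forall _).2 fun x hx =>
        hCD x hx (e ▸ ((hmemC x).1 hx).1))
      exact hd1 (hCD d ((hmemC d).2 ⟨hd.1,
        hline D hDle (hcard3 D hDle hDne hDA) hinvD d hd⟩) hd)
    intro x hx
    have hw : x * (z * x * z⁻¹) ∈ C := by
      refine (hmemC _).2 ⟨mul_mem hx (hAn.conj_mem x hx z), ?_⟩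
      rw [hconj, show z * (z * x * z⁻¹) * z⁻¹ = (z * z) * x * (z * z)⁻¹ by group, hzz, one_mul,
        inv_one, mul_one, hAcomm _ (hAn.conj_mem x hx z) x hx]
    rw [hCbot, Subgroup.mem_bot] at hw
    exact eq_inv_of_mul_eq_one_right hw
  set f₀ := φ₀ (sr 0) with hf₀
  have hff : f₀ * f₀ = 1 := by rw [hf₀, ← map_mul]; exact map_one φ₀
  obtain ⟨a, haA, ha1, hfa⟩ : ∃ a ∈ A, a ≠ 1 ∧ f₀ * a * f₀⁻¹ = a := by
    by_contra hno
    push Not at hno
    have hfinv : ∀ x ∈ A, f₀ * x * f₀⁻¹ = x⁻¹ := fun x hx => by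
      have h1 : x * (f₀ * x * f₀⁻¹) = 1 := by
        by_contra h1
        refine hno _ (mul_mem hx (hAn.conj_mem x hx f₀)) h1 ?_
        rw [hconj, show f₀ * (f₀ * x * f₀⁻¹) * f₀⁻¹ = (f₀ * f₀) * x * (f₀ * f₀)⁻¹ by group, hff,
          one_mul, inv_one, mul_one, hAcomm _ (hAn.conj_mem x hx f₀) x hx]
      exact eq_inv_of_mul_eq_one_right h1
    have : (sr 0 * r 2 : DihedralGroup 4) = 1 := hfaithA _ fun x hx => by
      rw [map_mul, ← hf₀, ← hz, show f₀ * z * x * (f₀ * z)⁻¹ = f₀ * (z * x * z⁻¹) * f₀⁻¹ by group,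
        hzA x hx, hfinv _ (inv_mem hx), inv_inv]
    exact absurd this (by decide)
  set b := R₀ * a * R₀⁻¹ with hb
  have hbA : b ∈ A := hAn.conj_mem a haA R₀
  have hfR : f₀ * R₀ = R₀⁻¹ * f₀ := by rw [hf₀, hR₀, ← map_inv, ← map_mul, ← map_mul]; rfl
  have hfb : f₀ * b * f₀⁻¹ = b⁻¹ := by
    calc f₀ * b * f₀⁻¹ = (f₀ * R₀) * a * (f₀ * R₀)⁻¹ := by rw [hb]; group
      _ = R₀⁻¹ * (f₀ * a * f₀⁻¹) * R₀ := by rw [hfR]; group
      _ = R₀ * (z * a * z⁻¹) * R₀⁻¹ := by rw [hfa, hzinv]; nth_rw 1 [← hzinv]; rw [← hRR]; group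
      _ = b⁻¹ := by rw [hzA a haA, hb]; group
  have hRb : R₀ * b * R₀⁻¹ = a⁻¹ := by rw [← hzA a haA, hb, ← hRR]; group
  have hAgen : ∀ H : Subgroup S, a ∈ H → b ∈ H → A ≤ H := by
    intro H ha hb'
    have hle : A ≤ Subgroup.closure {a, b} := by
      set U := Subgroup.closure ({a, b} : Set S) with hU
      have hUA : U ≤ A := (Subgroup.closure_le A).2 (Set.insert_subset haA
        (Set.singleton_subset_iff.2 hbA))
      have hd := Subgroup.card_dvd_of_le hUA
      rw [hA9] at hd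
      have hau : Subgroup.zpowers a < U := by
        refine lt_of_le_of_ne (Subgroup.zpowers_le.2 (Subgroup.subset_closure (by simp))) fun e => ?_
        have hbz : b ∈ Subgroup.zpowers a := e.symm ▸ Subgroup.subset_closure (by simp)
        obtain ⟨n, hn⟩ := mem_powers_iff_mem_zpowers.2 hbz
        simp only at hn
        have h1 : f₀ * b * f₀⁻¹ = b := by rw [← hn, ← conj_pow, hfa]
        rw [h1] at hfb
        have h2 : b = 1 := by
          have h4 : b * b = 1 := by nth_rw 2 [hfb]; exact mul_inv_cancel b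
          calc b = b * (b * b) := by rw [h4, mul_one]
            _ = b ^ 3 := (pow_three b).symm
            _ = 1 := hAexp b hbA
        rw [hb, mul_inv_eq_one, mul_eq_left] at h2
        exact ha1 h2
      have hlt : Nat.card (Subgroup.zpowers a) < Nat.card U :=
        lt_of_not_ge fun hge => hau.ne (Subgroup.eq_of_le_of_card_ge hau.le hge)
      rw [Nat.card_zpowers, orderOf_eq_prime (hAexp a haA) ha1] at hlt
      refine (Subgroup.eq_of_le_of_card_ge hUA ?_).ge
      have : Nat.card U ≤ 9 := Nat.le_of_dvd (by norm_num) hd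
      interval_cases h : Nat.card U <;> omega
    exact hle.trans ((Subgroup.closure_le H).2 (Set.insert_subset ha (Set.singleton_subset_iff.2 hb')))
  have hDgen : ∀ H : Subgroup S, R₀ ∈ H → f₀ ∈ H → φ₀.range ≤ H := by
    rintro H hR hf _ ⟨x, rfl⟩
    have hdec : x = (r 1) ^ (match x with | r i => i.val | sr i => i.val) ∨
        x = sr 0 * (r 1) ^ (match x with | r i => i.val | sr i => i.val) := by
      rcases x with i | i
      · left; rw [DihedralGroup.r_one_pow, ZMod.natCast_zmod_val]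
      · right; rw [DihedralGroup.r_one_pow, ZMod.natCast_zmod_val, DihedralGroup.sr_mul_r, zero_add]
    rcases hdec with h | h <;> rw [h]
    · rw [map_pow]; exact pow_mem hR _
    · rw [map_mul, map_pow]; exact mul_mem hf (pow_mem hR _)
  -- choose the frame
  obtain ⟨φ, hφi, hφr, a', hFr, hA', hfixv⟩ : ∃ φ : DihedralGroup 4 →* S, Function.Injective φ ∧
      φ.range = φ₀.range ∧ ∃ a', Frame A φ a' ∧
      (∀ H : Subgroup S, a' ∈ H → φ (r 1) * a' * (φ (r 1))⁻¹ ∈ H → φ (r 1) ∈ H → φ (sr 0) ∈ H →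
        H = ⊤) ∧ ∃ v : M, v ≠ 0 ∧ ρ a' v = v := by
    have hmul : ∀ (x y : S) (m : M), ρ (x * y) m = ρ x (ρ y m) := fun x y m => by
      rw [map_mul, Module.End.mul_apply]
    obtain ⟨v, hv⟩ := exists_ne (0 : M)
    set P := ρ a with hP
    set Q := ρ b with hQ
    have hP3 : ∀ m : M, P (P (P m)) = m := fun m => by
      rw [hP, ← hmul, ← hmul, show a * a * a = a ^ 3 by rw [pow_three, mul_assoc], hAexp a haA, map_one,
        Module.End.one_apply]
    have hQ3 : ∀ m : M, Q (Q (Q m)) = m := fun m => by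
      rw [hQ, ← hmul, ← hmul, show b * b * b = b ^ 3 by rw [pow_three, mul_assoc], hAexp b hbA, map_one,
        Module.End.one_apply]
    have hPQ : ∀ m : M, P (Q m) = Q (P m) := fun m => by
      rw [hP, hQ, ← hmul, ← hmul, hAcomm a haA b hbA]
    have hsum : (v + P v + P (P v)) + (v + Q v + Q (Q v)) + (v + P (Q v) + P (P (Q (Q v)))) +
        (v + P (Q (Q v)) + P (P (Q v))) = v + ((v + P v + P (P v)) +
          Q (v + P v + P (P v)) + Q (Q (v + P v + P (P v)))) := by
      simp only [map_add, ← hPQ]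
      have h2 : v + v = (0 : M) := add_self v
      calc _ = (v + v) + (v + v + P v + P (P v) + Q v + Q (Q v) + P (Q v) + P (P (Q (Q v))) +
            P (Q (Q v)) + P (P (Q v))) := by abel
        _ = (v + v) + (P v + P (P v) + Q v + Q (Q v) + P (Q v) + P (P (Q (Q v))) +
            P (Q (Q v)) + P (P (Q v))) := by rw [h2, zero_add, zero_add, zero_add]
        _ = _ := by abel
    have hcase : (∃ w : M, w ≠ 0 ∧ ρ a w = w) ∨ ∃ w : M, w ≠ 0 ∧ ρ (a * b⁻¹) w = w := by
      by_cases h1 : v + P v + P (P v) ≠ 0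
      · exact Or.inl ⟨_, h1, show P _ = _ by simp only [map_add, hP3]; abel⟩
      by_cases h2 : v + Q v + Q (Q v) ≠ 0
      · refine Or.inl ⟨ρ R₀⁻¹ (v + Q v + Q (Q v)), fun e => h2 ?_, ?_⟩
        · have := congrArg (ρ R₀) e
          rwa [← hmul, mul_inv_cancel, map_one, Module.End.one_apply, map_zero] at this
        · rw [← hmul, show a * R₀⁻¹ = R₀⁻¹ * b by rw [hb]; group, hmul]
          congr 1
          show Q _ = _
          simp only [map_add, hQ3]; abel
      by_cases h3 : v + P (Q v) + P (P (Q (Q v))) ≠ 0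
      · refine Or.inr ⟨ρ R₀ (v + P (Q v) + P (P (Q (Q v)))), fun e => h3 ?_, ?_⟩
        · have := congrArg (ρ R₀⁻¹) e
          rwa [← hmul, inv_mul_cancel, map_one, Module.End.one_apply, map_zero] at this
        · have h4 : a * b⁻¹ * R₀ = R₀ * (a * b)⁻¹ := by
            rw [show R₀ * (a * b)⁻¹ = ((R₀ * b * R₀⁻¹)⁻¹ * (R₀ * a * R₀⁻¹)⁻¹) * R₀ by group, hRb,
              ← hb, inv_inv]
          rw [← hmul, h4, hmul]
          congr 1
          have h5 : ρ (a * b) (v + P (Q v) + P (P (Q (Q v)))) = v + P (Q v) + P (P (Q (Q v))) := by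
            rw [hmul]
            show P (Q _) = _
            simp only [map_add, ← hPQ, hQ3, hP3]; abel
          conv_lhs => rw [← h5]
          rw [← hmul, inv_mul_cancel, map_one, Module.End.one_apply]
      by_cases h4 : v + P (Q (Q v)) + P (P (Q v)) ≠ 0
      · refine Or.inr ⟨_, h4, ?_⟩
        have h5 : b⁻¹ = b * b := inv_eq_of_mul_eq_one_right (by rw [← hAexp b hbA, pow_three])
        rw [h5, hmul, hmul]
        show P (Q (Q _)) = _
        simp only [map_add, ← hPQ, hQ3, hP3]; abel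
      push Not at h1 h2 h3 h4
      rw [h1, h2, h3, h4] at hsum
      simp only [map_zero, add_zero] at hsum
      exact absurd hsum.symm hv
    rcases hcase with h | h
    · refine ⟨φ₀, hφ, rfl, a, ⟨haA, ha1, hfa⟩, fun H h1 h2 h3 h4 => eq_top_iff.2 ?_, h⟩
      rw [← hAX]; exact sup_le (hAgen H h1 h2) (hDgen H h3 h4)
    · have hsh : φ₀.comp shift (sr 0) = f₀ * R₀ := by
        rw [MonoidHom.comp_apply, hf₀, hR₀, ← map_mul]; rfl
      have hconj' : R₀ * (a * b⁻¹) * R₀⁻¹ = b * a := by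
        rw [hconj, ← hb, show R₀ * b⁻¹ * R₀⁻¹ = (R₀ * b * R₀⁻¹)⁻¹ by group, hRb, inv_inv]
      refine ⟨φ₀.comp shift, hφ.comp shift_bijective.1, ?_, a * b⁻¹,
        ⟨mul_mem haA (inv_mem hbA), fun e => ?_, ?_⟩, fun H h1 h2 h3 h4 => eq_top_iff.2 ?_, h⟩
      · rw [MonoidHom.range_comp, MonoidHom.range_eq_top.2 shift_bijective.2,
          ← MonoidHom.range_eq_map]
      · rw [mul_inv_eq_one] at e
        refine ha1 ?_
        rw [← e] at hfb
        rw [hfa] at hfb
        have h4 : a * a = 1 := by nth_rw 2 [hfb]; exact mul_inv_cancel a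
        calc a = a * (a * a) := by rw [h4, mul_one]
          _ = a ^ 3 := (pow_three a).symm
          _ = 1 := hAexp a haA
      · rw [hsh, show f₀ * R₀ * (a * b⁻¹) * (f₀ * R₀)⁻¹ =
          f₀ * (R₀ * (a * b⁻¹) * R₀⁻¹) * f₀⁻¹ by group, hconj', hconj, hfb, hfa,
          hAcomm _ (inv_mem hbA) a haA]
      · rw [hsh] at h4
        have hR' : R₀ ∈ H := h3
        have hf' : f₀ ∈ H := by simpa using mul_mem h4 (inv_mem hR')
        rw [MonoidHom.comp_apply] at h2
        have h2' : b * a ∈ H := by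
          have : R₀ * (a * b⁻¹) * R₀⁻¹ ∈ H := h2
          rwa [hconj'] at this
        have ha' : a ∈ H := by
          have hm := mul_mem h1 h2'
          rw [← mul_assoc, inv_mul_cancel_right] at hm
          have h7 := mul_mem hm hm
          rw [show a * a * (a * a) = a ^ 3 * a by rw [pow_three]; simp only [mul_assoc], hAexp a haA, one_mul] at h7
          exact h7
        have hb' : b ∈ H := by
          have := mul_mem h2' (inv_mem ha')
          rwa [mul_inv_cancel_right] at this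
        rw [← hAX]
        exact sup_le (hAgen H ha' hb') (hDgen H hR' hf')
  obtain ⟨h16, h2, u, w, hu, hw, huw, hfix⟩ := module_structure A hAexp hAcomm φ
    (fun x hx => by
      have hz' : φ (r 2) = z := by
        have h1 : φ (r 2) ∈ φ₀.range := hφr ▸ ⟨r 2, rfl⟩
        obtain ⟨y, hy⟩ := h1
        have hsq : ∀ y : DihedralGroup 4, (∃ t : DihedralGroup 4, t * t = y) → y = 1 ∨ y = r 2 := by
          decide
        obtain ⟨t, ht⟩ : φ (r 1) ∈ φ₀.range := hφr ▸ ⟨r 1, rfl⟩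
        have hyt : t * t = y := hφ (by rw [map_mul, ht, hy, ← map_mul]; rfl)
        rcases hsq y ⟨t, hyt⟩ with rfl | rfl
        · rw [map_one] at hy
          exact absurd (hφi (hy.symm.trans (map_one φ).symm)) (by decide)
        · exact hy.symm
      rw [hz', hzA x hx]) hAn a' hFr hA' ρ hfaith hirr hfixv
  refine ⟨h16, fourOne.map φ, ⟨?_, ?_, ?_, h2⟩, ?_⟩
  · rw [← hφr, MonoidHom.range_eq_map]; exact Subgroup.map_mono le_top
  · rw [Subgroup.card_map_of_injective hφi, card_fourOne]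
  · rintro _ ⟨x, hx, rfl⟩
    rw [← map_pow, ← map_one φ]
    congr 1
    rcases mem_fourOne.1 hx with rfl | rfl | rfl | rfl <;> simp only [pow_two] <;> decide
  · rintro B ⟨hBX, hB4, hB2, hB⟩
    have hBc : (B.comap φ).map φ = B := Subgroup.map_comap_eq_self (hφr ▸ hBX)
    rcases exponent_two_four (B.comap φ)
        (by rw [← Subgroup.card_map_of_injective hφi, hBc, hB4])
        (fun x hx => hφi (by rw [map_pow, map_one]; exact hB2 _ hx)) with h | h
    · rw [← hBc, h]
    · exfalso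
      have hfix' : ∀ m : M, m = u ∨ m = w ∨ m = 0 → ∀ x ∈ B, ρ x m = m := by
        intro m hm x hx
        rw [← hBc] at hx
        obtain ⟨e, he, rfl⟩ := hx
        have he' := h e he
        rcases hm with rfl | rfl | rfl
        · exact (hfix e he').1
        · exact (hfix e he').2
        · exact map_zero _
      have hsub : ({0, u, w} : Set M) ⊆ {m : M | ∀ b ∈ B, ρ b m = m} := by
        rintro m (rfl | rfl | rfl)
        · exact hfix' _ (Or.inr (Or.inr rfl))
        · exact hfix' _ (Or.inl rfl)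
        · exact hfix' _ (Or.inr (Or.inl rfl))
      have h3 := Set.ncard_le_ncard hsub
      rw [Set.ncard_insert_of_notMem (by simp [Ne.symm hu, Ne.symm hw]), Set.ncard_pair huw,
        ← Nat.card_coe_set_eq] at h3
      have h4 : Nat.card ↥{m : M | ∀ b ∈ B, ρ b m = m} = 2 := hB
      omega

end Cfsg.Agent.SmallModule
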