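import Cfsg.Agent.Perm.Modules
import Mathlib

/-!
Fixed points of a `2`-group on a module in characteristic two with an abelian normal subgroup of
odd order whose characters are moved by an element of odd prime order.
-/

set_option autoImplicit false
set_option linter.unusedSectionVars false

namespace Cfsg.Agent.SmallModule

open Module

variable {S : Type*} [Group S] [Finite S]

section overField

variable {K V : Type*} [Field K] [AddCommGroup V] [Module K V] [FiniteDimensional K V]

/-- The twist of a character of a normal subgroup. -/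
def twist (P : Subgroup S) [P.Normal] (s : S) (χ : P →* Kˣ) : P →* Kˣ :=
  χ.comp (MulAut.conjNormal s⁻¹ : MulAut P).toMonoidHom

theorem twist_mul (P : Subgroup S) [P.Normal] (s t : S) (χ : P →* Kˣ) :
    twist P (s * t) χ = twist P s (twist P t χ) := by
  refine MonoidHom.ext fun x => ?_
  show χ (MulAut.conjNormal (s * t)⁻¹ x) = χ (MulAut.conjNormal t⁻¹ (MulAut.conjNormal s⁻¹ x))
  rw [mul_inv_rev, map_mul, MulAut.mul_apply]

theorem twist_one (P : Subgroup S) [P.Normal] (χ : P →* Kˣ) : twist P 1 χ = χ := by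
  refine MonoidHom.ext fun x => ?_
  show χ (MulAut.conjNormal (1 : S)⁻¹ x) = χ x
  rw [inv_one, map_one, MulAut.one_apply]

/-- The eigenspace of a character. -/
def charSpace (σ : Representation K S V) (P : Subgroup S) (χ : P →* Kˣ) : Submodule K V where
  carrier := {v | ∀ x : P, σ x v = (χ x : K) • v}
  add_mem' {u v} hu hv x := by rw [map_add, hu x, hv x, smul_add]
  zero_mem' x := by rw [map_zero, smul_zero]
  smul_mem' c {v} hv x := by rw [map_smul, hv x, smul_comm]

theorem fixed_space (σ : Representation K S V) [CharP K 2] [IsAlgClosed K] [Nontrivial V]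
    (P : Subgroup S) [P.Normal] (hcomm : ∀ a ∈ P, ∀ b ∈ P, a * b = b * a)
    (hPK : (Nat.card P : K) ≠ 0) (hfix : ∀ v : V, (∀ x ∈ P, σ x v = v) → v = 0)
    (T : Subgroup S) (hT : IsPGroup 2 T) (h : S) (q : ℕ) (hq : q.Prime) (hq2 : q ≠ 2)
    (hh : h ^ q = 1)
    (hmove : ∀ χ : P →* Kˣ, (∀ x : P, χ (MulAut.conjNormal h x) = χ x) → χ = 1) :
    ∀ F : Submodule K V, (∀ v, (∀ t ∈ T, σ t v = v) → v ∈ F) →
      (∀ v ∈ F, ∀ t ∈ T, σ t v = v) →
      2 ≤ finrank K F ∧ (finrank K F ≤ 2 → ∃ v ∈ F, σ h v ∉ F) := by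
  classical
  haveI : Fact (Nat.Prime 2) := ⟨Nat.prime_two⟩
  haveI : Fintype P := Fintype.ofFinite P
  intro F hF1 hF2
  -- an eigencharacter
  obtain ⟨χ, v₀, hv₀, hv₀0⟩ : ∃ (χ : P →* Kˣ) (v : V), v ∈ charSpace σ P χ ∧ v ≠ 0 := by
    obtain ⟨n, ⟨W, hWne, hWinv, rfl⟩, hmin⟩ := Nat.findX
      (⟨_, ⊤, top_ne_bot, fun _ _ _ => Submodule.mem_top, rfl⟩ :
        ∃ n, ∃ W : Submodule K V, W ≠ ⊥ ∧ (∀ x : P, ∀ v ∈ W, σ x v ∈ W) ∧ finrank K W = n)
    have hscal : ∀ x : P, ∃ c : K, ∀ v ∈ W, σ x v = c • v := by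
      intro x
      haveI : Nontrivial W := Submodule.nontrivial_iff_ne_bot.2 hWne
      obtain ⟨c, hc⟩ := Module.End.exists_eigenvalue ((σ x).restrict (hWinv x) : Module.End K W)
      obtain ⟨w, hw⟩ := hc.exists_hasEigenvector
      refine ⟨c, fun v hv => ?_⟩
      set W' := W ⊓ LinearMap.ker (σ (x : S) - c • (1 : Module.End K V)) with hW'
      have hne : W' ≠ ⊥ := by
        rw [Submodule.ne_bot_iff]
        refine ⟨w, ⟨w.2, ?_⟩, fun e => hw.2 (Subtype.ext e)⟩
        have := congrArg Subtype.val hw.apply_eq_smul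
        simpa [sub_eq_zero] using this
      have hinv : ∀ y : P, ∀ u ∈ W', σ y u ∈ W' := by
        rintro y u ⟨hu, hu'⟩
        refine ⟨hWinv y u hu, ?_⟩
        simp only [SetLike.mem_coe, LinearMap.mem_ker, LinearMap.sub_apply, LinearMap.smul_apply,
          Module.End.one_apply, sub_eq_zero] at hu' ⊢
        rw [← Module.End.mul_apply, ← map_mul, hcomm _ x.2 _ y.2, map_mul, Module.End.mul_apply,
          hu', map_smul]
      have heq : W' = W := by
        refine Submodule.eq_of_le_of_finrank_le inf_le_left (not_lt.1 fun hlt => ?_)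
        exact hmin _ hlt ⟨W', hne, hinv, rfl⟩
      have := (heq ▸ hv : v ∈ W').2
      simpa [sub_eq_zero] using this
    choose c hc using hscal
    obtain ⟨v, hv, hv0⟩ := W.exists_mem_ne_zero_of_ne_bot hWne
    let c₀ : P →* K :=
      { toFun := c
        map_one' := by
          have := hc 1 v hv
          rw [Subgroup.coe_one, map_one, Module.End.one_apply] at this
          exact (smul_left_injective K hv0 (show (1 : K) • v = c 1 • v by rw [one_smul, ← this])).symm
        map_mul' := fun a b => by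
          have := hc (a * b) v hv
          rw [Subgroup.coe_mul, map_mul, Module.End.mul_apply, hc b v hv, map_smul, hc a v hv,
            smul_smul] at this
          exact (smul_left_injective K hv0 this).symm.trans (mul_comm _ _) }
    exact ⟨c₀.toHomUnits, v, fun x => hc x v hv, hv0⟩
  -- projections
  let pr : (P →* Kˣ) → Module.End K V := fun μ => ∑ x : P, ((μ x)⁻¹ : Kˣ).val • σ x
  have hpr : ∀ (μ ν : P →* Kˣ) (v : V), v ∈ charSpace σ P ν →
      pr μ v = if μ = ν then (Nat.card P : K) • v else 0 := by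
    intro μ ν v hv
    have h1 : pr μ v = (∑ x : P, ((μ x)⁻¹ * ν x : Kˣ).val) • v := by
      simp only [pr, LinearMap.sum_apply, LinearMap.smul_apply, Finset.sum_smul]
      refine Finset.sum_congr rfl fun x _ => ?_
      rw [hv x, smul_smul, Units.val_mul]
    rw [h1]
    split_ifs with he
    · subst he
      simp [Nat.card_eq_fintype_card]
    · have hf : ((Units.coeHom K).comp (μ⁻¹ * ν)) ≠ 1 := fun e => he <| by
        refine MonoidHom.ext fun x => ?_
        have := DFunLike.congr_fun e x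
        simp only [MonoidHom.comp_apply, MonoidHom.mul_apply, MonoidHom.inv_apply,
          Units.coeHom_apply, MonoidHom.one_apply, Units.val_eq_one] at this
        exact inv_mul_eq_one.1 this
      have := sum_hom_units_eq_zero _ hf
      simp only [MonoidHom.comp_apply, MonoidHom.mul_apply, MonoidHom.inv_apply,
        Units.coeHom_apply] at this
      rw [this, zero_smul]
  have hmap : ∀ (s : S) (μ : P →* Kˣ) (v : V), v ∈ charSpace σ P μ →
      σ s v ∈ charSpace σ P (twist P s μ) := by
    intro s μ v hv x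
    show σ x (σ s v) = (μ (MulAut.conjNormal s⁻¹ x) : K) • σ s v
    rw [← map_smul, ← hv, ← Module.End.mul_apply, ← Module.End.mul_apply, ← map_mul, ← map_mul,
      MulAut.conjNormal_apply, inv_inv]
    congr 2
    group
  have horbit : ∀ ν : P →* Kˣ, (∃ v ∈ charSpace σ P ν, v ≠ 0) →
      ∃ w ∈ F, ∀ μ : P →* Kˣ, pr μ w ≠ 0 ↔ ∃ t ∈ T, twist P t ν = μ := by
    rintro ν ⟨v, hv, hv0⟩
    let W : Submodule K V := ⨆ t : T, charSpace σ P (twist P t ν)
    have hWinv : ∀ g : T, ∀ u ∈ W, σ g u ∈ W := by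
      intro g
      have : W ≤ W.comap (σ g) := iSup_le fun t u hu => by
        refine Submodule.mem_iSup_of_mem (g * t) ?_
        rw [Subgroup.coe_mul, twist_mul]
        exact hmap g _ u hu
      exact fun u hu => this hu
    have hWne : W ≠ ⊥ := (Submodule.ne_bot_iff W).2
      ⟨v, Submodule.mem_iSup_of_mem 1 (by rw [Subgroup.coe_one, twist_one]; exact hv), hv0⟩
    obtain ⟨w, hwW, hw0, hwfix⟩ :=
      PermLib.exists_fixed_vector (K := K) hT (σ.comp T.subtype) W hWinv hWne
    have hwT : ∀ t ∈ T, σ t w = w := fun t ht => hwfix ⟨t, ht⟩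
    have hsum : ∀ u ∈ W, (∀ μ, (∀ t ∈ T, twist P t ν ≠ μ) → pr μ u = 0) ∧
        ((∀ t : T, pr (twist P t ν) u = 0) → u = 0) := by
      intro u hu
      obtain ⟨f, hf, rfl⟩ := (Submodule.mem_iSup_iff_exists_finsupp _ u).1 hu
      refine ⟨fun μ hμ => ?_, fun h0 => ?_⟩
      · rw [map_finsuppSum]
        refine Finset.sum_eq_zero fun t _ => ?_
        show pr μ (f t) = 0
        rw [hpr μ _ _ (hf t), if_neg (Ne.symm (hμ t t.2))]
      · -- group the terms by their character
        set O := f.support.image fun t : T => twist P t ν with hO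
        show ∑ t ∈ f.support, f t = 0
        rw [← Finset.sum_fiberwise_of_maps_to (t := O) (g := fun t : T => twist P t ν)
          (fun t ht => Finset.mem_image_of_mem _ ht)]
        refine Finset.sum_eq_zero fun μ hμ => ?_
        obtain ⟨t₀, -, rfl⟩ := Finset.mem_image.1 hμ
        have h1 := h0 t₀
        rw [map_finsuppSum] at h1
        have h2 : ∑ t ∈ f.support, pr (twist P t₀ ν) (f t) =
            (Nat.card P : K) • ∑ t ∈ f.support.filter (fun t : T => twist P (t : S) ν = twist P (t₀ : S) ν), f t := by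
          rw [Finset.smul_sum, Finset.sum_filter]
          refine Finset.sum_congr rfl fun t _ => ?_
          rw [hpr _ _ _ (hf t)]
          by_cases he : twist P (t : S) ν = twist P t₀ ν
          · rw [if_pos he, if_pos he.symm]
          · rw [if_neg he, if_neg (Ne.symm he)]
        rw [show (f.sum fun i xi => pr (twist P t₀ ν) xi) = _ from h2] at h1
        exact (smul_eq_zero.1 h1).resolve_left hPK
    refine ⟨w, hF1 w hwT, fun μ => ⟨fun hμ => ?_, ?_⟩⟩
    · by_contra hc
      push Not at hc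
      exact hμ ((hsum w hwW).1 μ hc)
    · rintro ⟨t, ht, rfl⟩ hμ
      refine hw0 ((hsum w hwW).2 fun t' => ?_)
      -- equivariance of the projections
      have heq : ∀ (s : S) (μ : P →* Kˣ) (u : V), pr (twist P s μ) (σ s u) = σ s (pr μ u) := by
        intro s μ u
        simp only [pr, LinearMap.sum_apply, LinearMap.smul_apply, map_sum, map_smul]
        refine Fintype.sum_equiv (MulAut.conjNormal s⁻¹ : MulAut P).toEquiv _ _ fun x => ?_
        show ((μ (MulAut.conjNormal s⁻¹ x))⁻¹ : Kˣ).val • σ x (σ s u) =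
          ((μ (MulAut.conjNormal s⁻¹ x))⁻¹ : Kˣ).val • σ s (σ (MulAut.conjNormal s⁻¹ x : P) u)
        rw [← Module.End.mul_apply, ← Module.End.mul_apply, ← map_mul, ← map_mul,
          MulAut.conjNormal_apply, inv_inv]
        congr 3
        group
      have h1 := heq ((t' : S) * t⁻¹) (twist P t ν) w
      rw [← twist_mul, inv_mul_cancel_right, hwT _ (mul_mem t'.2 (inv_mem ht)), hμ, map_zero] at h1
      exact h1
  -- two orbits
  have horb_h : ∃ t₁ ∈ T, ∀ t₂ ∈ T, twist P (h * t₁) χ ≠ twist P t₂ χ := by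
    by_contra hc
    push Not at hc
    let O := Set.range fun t : T => twist P (t : S) χ
    haveI : Finite O := Set.finite_range _ |>.to_subtype
    have hO : ∀ μ ∈ O, twist P h μ ∈ O := by
      rintro _ ⟨t, rfl⟩
      obtain ⟨t₂, ht₂, he⟩ := hc t t.2
      refine ⟨⟨t₂, ht₂⟩, ?_⟩
      show twist P t₂ χ = _
      rw [← he, twist_mul]
    have hpowO : ∀ n : ℕ, ∀ μ ∈ O, twist P (h ^ n) μ ∈ O := by
      intro n
      induction n with
      | zero => intro μ hμ; rwa [pow_zero, twist_one]
      | succ n ih => intro μ hμ; rw [pow_succ', twist_mul]; exact hO _ (ih μ hμ)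
    have hzO : ∀ g ∈ Subgroup.zpowers h, ∀ μ ∈ O, twist P g μ ∈ O := by
      intro g hg μ hμ
      obtain ⟨n, rfl⟩ := mem_powers_iff_mem_zpowers.2 hg
      exact hpowO n μ hμ
    letI : MulAction (Subgroup.zpowers h) O :=
      { smul := fun g μ => ⟨twist P g μ.1, hzO _ g.2 _ μ.2⟩
        one_smul := fun μ => Subtype.ext (twist_one P μ.1)
        mul_smul := fun a b μ => Subtype.ext (twist_mul P a b μ.1) }
    haveI : Fact q.Prime := ⟨hq⟩
    have hzq : IsPGroup q (Subgroup.zpowers h) := by
      intro g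
      refine ⟨1, Subtype.ext ?_⟩
      obtain ⟨n, hn⟩ := mem_powers_iff_mem_zpowers.2 g.2
      simp only at hn
      rw [SubgroupClass.coe_pow, ← hn, pow_one, ← pow_mul, mul_comm, pow_mul, hh, one_pow]
      rfl
    have hnofix : MulAction.fixedPoints (Subgroup.zpowers h) O = ∅ := by
      refine Set.eq_empty_iff_forall_notMem.2 fun μ hμ => ?_
      have h1 : twist P h μ.1 = μ.1 := congrArg Subtype.val (hμ ⟨h, Subgroup.mem_zpowers h⟩)
      have h2 : μ.1 = 1 := hmove μ.1 fun x => by
        have := DFunLike.congr_fun h1 (MulAut.conjNormal h x)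
        show μ.1 (MulAut.conjNormal h x) = μ.1 x
        rw [← this]
        show μ.1 (MulAut.conjNormal h⁻¹ (MulAut.conjNormal h x)) = μ.1 x
        rw [← MulAut.mul_apply, ← map_mul, inv_mul_cancel, map_one, MulAut.one_apply]
      obtain ⟨t, ht⟩ := μ.2
      have h3 : χ = 1 := by
        have h4 : twist P ((t : S)⁻¹) (twist P t χ) = twist P (t : S)⁻¹ 1 := by
          show twist P _ ((fun t : T => twist P (t : S) χ) t) = _
          rw [ht, h2]
        rw [← twist_mul, inv_mul_cancel, twist_one] at h4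
        exact h4
      refine hv₀0 (hfix v₀ fun x hx => ?_)
      rw [hv₀ ⟨x, hx⟩, h3, MonoidHom.one_apply, Units.val_one, one_smul]
    have hdvd : q ∣ Nat.card O := by
      have := hzq.card_modEq_card_fixedPoints O
      have e0 : Nat.card (MulAction.fixedPoints (Subgroup.zpowers h) O) = 0 := by
        rw [hnofix]; simp
      rw [e0] at this
      exact Nat.modEq_zero_iff_dvd.1 this
    letI : MulAction T (P →* Kˣ) :=
      { smul := fun t μ => twist P (t : S) μ
        one_smul := twist_one P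
        mul_smul := fun a b μ => twist_mul P a b μ }
    have hOcard : Nat.card O ∣ Nat.card T := by
      have : O = MulAction.orbit T χ := rfl
      rw [this, Nat.card_coe_set_eq, ← MulAction.index_stabilizer]
      exact Subgroup.index_dvd_card _
    obtain ⟨k, hk⟩ := IsPGroup.iff_card.1 hT
    rw [hk] at hOcard
    exact hq2 ((Nat.prime_dvd_prime_iff_eq hq Nat.prime_two).1
      (hq.dvd_of_dvd_pow (hdvd.trans hOcard)))
  obtain ⟨t₁, ht₁, hsep⟩ := horb_h
  obtain ⟨w₁, hw₁, hs₁⟩ := horbit χ ⟨v₀, hv₀, hv₀0⟩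
  obtain ⟨w₂, hw₂, hs₂⟩ := horbit (twist P (h * t₁) χ)
    ⟨σ (h * t₁) v₀, hmap _ _ _ hv₀, fun e => hv₀0 (by
      have := congrArg (σ (h * t₁)⁻¹) e
      rwa [← Module.End.mul_apply, ← map_mul, inv_mul_cancel, map_one, Module.End.one_apply,
        map_zero] at this)⟩
  have hdisj : ∀ μ, (∃ t ∈ T, twist P t χ = μ) →
      ¬ ∃ t ∈ T, twist P t (twist P (h * t₁) χ) = μ := by
    rintro μ ⟨a, ha, rfl⟩ ⟨b, hb, he⟩
    refine hsep (b⁻¹ * a) (mul_mem (inv_mem hb) ha) ?_
    rw [twist_mul P b⁻¹ a, ← he, ← twist_mul P b⁻¹ b, inv_mul_cancel, twist_one]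
  have h11 : pr χ w₁ ≠ 0 := (hs₁ χ).2 ⟨1, one_mem T, twist_one P χ⟩
  set ν := twist P (h * t₁) χ with hν
  have h22 : pr ν w₂ ≠ 0 := (hs₂ ν).2 ⟨1, one_mem T, twist_one P ν⟩
  have h12 : ∀ μ, pr μ w₁ ≠ 0 → pr μ w₂ = 0 := fun μ h1 => not_not.1 fun h2 =>
    hdisj μ ((hs₁ μ).1 h1) ((hs₂ μ).1 h2)
  have hind : LinearIndependent K ![w₁, w₂] := by
    rw [LinearIndependent.pair_iff]
    intro c d hcd
    have e1 := congrArg (pr χ) hcd
    have e2 := congrArg (pr ν) hcd
    rw [map_add, map_smul, map_smul, map_zero] at e1 e2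
    rw [h12 χ h11, smul_zero, add_zero] at e1
    have hz : pr ν w₁ = 0 := not_not.1 fun hh' => h22 (h12 ν hh')
    rw [hz, smul_zero, zero_add] at e2
    exact ⟨(smul_eq_zero.1 e1).resolve_right h11, (smul_eq_zero.1 e2).resolve_right h22⟩
  let L : Submodule K V := Submodule.span K (Set.range ![w₁, w₂])
  have hLF : L ≤ F := Submodule.span_le.2 (by rintro _ ⟨i, rfl⟩; fin_cases i <;> assumption)
  have hL : finrank K L = 2 := by
    rw [show L = Submodule.span K (Set.range ![w₁, w₂]) from rfl, finrank_span_eq_card hind]; simp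
  refine ⟨hL ▸ Submodule.finrank_mono hLF, fun hle => ?_⟩
  by_contra hall
  push Not at hall
  have hFL : F = L := (Submodule.eq_of_le_of_finrank_le hLF (by omega)).symm
  -- `σ h w₁` would give an element of `T` moved into a fixed orbit
  have hcomb : ∀ w ∈ F, ∃ c d : K, w = c • w₁ + d • w₂ := by
    intro w hw
    rw [hFL] at hw
    have : w ∈ Submodule.span K ({w₁, w₂} : Set V) := by
      have hw' : w ∈ Submodule.span K (Set.range ![w₁, w₂]) := hw
      rwa [Matrix.range_cons, Matrix.range_cons, Matrix.range_empty, Set.union_empty,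
        Set.singleton_union] at hw'
    obtain ⟨c, d, rfl⟩ := Submodule.mem_span_pair.1 this
    exact ⟨c, d, rfl⟩
  have heqv : ∀ (s : S) (μ : P →* Kˣ) (u : V), pr (twist P s μ) (σ s u) = σ s (pr μ u) := by
    intro s μ u
    simp only [pr, LinearMap.sum_apply, LinearMap.smul_apply, map_sum, map_smul]
    refine Fintype.sum_equiv (MulAut.conjNormal s⁻¹ : MulAut P).toEquiv _ _ fun x => ?_
    show ((μ (MulAut.conjNormal s⁻¹ x))⁻¹ : Kˣ).val • σ x (σ s u) =
      ((μ (MulAut.conjNormal s⁻¹ x))⁻¹ : Kˣ).val • σ s (σ (MulAut.conjNormal s⁻¹ x : P) u)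
    rw [← Module.End.mul_apply, ← Module.End.mul_apply, ← map_mul, ← map_mul,
      MulAut.conjNormal_apply, inv_inv]
    congr 3
    group
  have hne : ∀ (s : S) (u : V), u ≠ 0 → σ s u ≠ 0 := fun s u hu e => hu (by
    have := congrArg (σ s⁻¹) e
    rwa [← Module.End.mul_apply, ← map_mul, inv_mul_cancel, map_one, Module.End.one_apply,
      map_zero] at this)
  -- supports of the images
  let Os : V → Set (P →* Kˣ) := fun w => {μ | pr μ w ≠ 0}
  have hOfin : ∀ w ∈ ({w₁, w₂} : Set V), (Os w).Finite := by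
    rintro w (rfl | rfl)
    · exact (Set.finite_range fun t : T => twist P (t : S) χ).subset fun μ hμ => by
        obtain ⟨t, ht, e⟩ := (hs₁ μ).1 hμ; exact ⟨⟨t, ht⟩, e⟩
    · exact (Set.finite_range fun t : T => twist P (t : S) ν).subset fun μ hμ => by
        obtain ⟨t, ht, e⟩ := (hs₂ μ).1 hμ; exact ⟨⟨t, ht⟩, e⟩
  have himg : ∀ w, twist P h '' Os w = Os (σ h w) := by
    intro w
    ext μ
    constructor
    · rintro ⟨μ', hμ', rfl⟩
      show pr _ _ ≠ 0
      rw [heqv]
      exact hne h _ hμ'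
    · intro hμ
      refine ⟨twist P h⁻¹ μ, fun e => hμ ?_, by rw [← twist_mul, mul_inv_cancel, twist_one]⟩
      have := heqv h (twist P h⁻¹ μ) w
      rw [← twist_mul, mul_inv_cancel, twist_one, e, map_zero] at this
      exact this
  have hinjt : Function.Injective (twist P h : (P →* Kˣ) → (P →* Kˣ)) := fun a b e => by
    have := congrArg (twist P h⁻¹) e
    rwa [← twist_mul, ← twist_mul, inv_mul_cancel, twist_one, twist_one] at this
  have hnot1 : twist P h '' Os w₁ ≠ Os w₁ := by
    intro e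
    have h1 : twist P h (twist P t₁ χ) ∈ Os w₁ :=
      e ▸ ⟨_, (hs₁ _).2 ⟨t₁, ht₁, rfl⟩, rfl⟩
    obtain ⟨t, ht, he⟩ := (hs₁ _).1 h1
    exact hsep t ht (by rw [he]; exact twist_mul P h t₁ χ)
  -- no component of `σ h w₁` on `w₁`
  have hd1 : twist P h '' Os w₁ = Os w₂ := by
    obtain ⟨c, d, hcd⟩ := hcomb _ (hall w₁ hw₁)
    have hpe : ∀ μ, pr μ (σ h w₁) = c • pr μ w₁ + d • pr μ w₂ := fun μ => by
      rw [hcd, map_add, map_smul, map_smul]
    have hcz : c = 0 := by
      by_contra hc
      refine hnot1 (Set.eq_of_subset_of_ncard_le (fun μ hμ => ?_) ?_ ?_).symm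
      · rw [himg]
        show pr μ (σ h w₁) ≠ 0
        rw [hpe, h12 μ hμ, smul_zero, add_zero]
        exact fun e => hμ ((smul_eq_zero.1 e).resolve_left hc)
      · rw [Set.ncard_image_of_injective _ hinjt]
      · exact (hOfin w₁ (Or.inl rfl)).image _
    rw [himg]
    have hdn : d ≠ 0 := fun e => hne h w₁ (fun e' => h11 (by rw [e', map_zero]))
      (by rw [hcd, hcz, e, zero_smul, zero_smul, add_zero])
    ext μ
    show pr μ (σ h w₁) ≠ 0 ↔ pr μ w₂ ≠ 0
    rw [hpe, hcz, zero_smul, zero_add, Ne, Ne, smul_eq_zero_iff_right hdn]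
  have hd2 : twist P h '' Os w₂ = Os w₁ ∨ twist P h '' Os w₂ = Os w₂ := by
    obtain ⟨c, d, hcd⟩ := hcomb _ (hall w₂ hw₂)
    have hpe : ∀ μ, pr μ (σ h w₂) = c • pr μ w₁ + d • pr μ w₂ := fun μ => by
      rw [hcd, map_add, map_smul, map_smul]
    by_cases hd : d = 0
    · left
      rw [himg]
      have hcn : c ≠ 0 := fun e => hne h w₂ (fun e' => h22 (by rw [e', map_zero]))
        (by rw [hcd, hd, e, zero_smul, zero_smul, add_zero])
      ext μ
      show pr μ (σ h w₂) ≠ 0 ↔ pr μ w₁ ≠ 0
      rw [hpe, hd, zero_smul, add_zero, Ne, Ne, smul_eq_zero_iff_right hcn]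
    · right
      refine (Set.eq_of_subset_of_ncard_le (fun μ hμ => ?_) ?_ ?_).symm
      · rw [himg]
        show pr μ (σ h w₂) ≠ 0
        have hz : pr μ w₁ = 0 := not_not.1 fun hh' => hμ (h12 μ hh')
        rw [hpe, hz, smul_zero, zero_add]
        exact fun e => hμ ((smul_eq_zero.1 e).resolve_left hd)
      · rw [Set.ncard_image_of_injective _ hinjt]
      · exact (hOfin w₂ (Or.inr rfl)).image _
  rcases hd2 with h2 | h2
  · -- `h²` fixes the first support, hence so does `h`
    obtain ⟨m, hm⟩ := hq.odd_of_ne_two hq2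
    have hpow : ∀ n : ℕ, twist P (h ^ (2 * n)) '' Os w₁ = Os w₁ := by
      intro n
      induction n with
      | zero => simp [twist_one]
      | succ n ih =>
        have hfun : (twist P (h ^ (2 * (n + 1))) : (P →* Kˣ) → (P →* Kˣ)) =
            twist P h ∘ twist P h ∘ twist P (h ^ (2 * n)) := by
          funext μ
          show twist P (h ^ (2 * (n + 1))) μ = twist P h (twist P h (twist P (h ^ (2 * n)) μ))
          rw [← twist_mul, ← twist_mul, mul_assoc, ← pow_succ', ← pow_succ']
          rfl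
        rw [hfun, Set.image_comp, Set.image_comp, ih, hd1, h2]
    refine hnot1 ?_
    have h3 := hpow (m + 1)
    rwa [show 2 * (m + 1) = q + 1 by omega, pow_succ, hh, one_mul] at h3
  · exact hnot1 (hd1.trans ((Set.image_eq_image hinjt).1 (hd1.trans h2.symm)).symm)

end overField

/-- Fixed points over the field with two elements. -/
theorem fixed_points_two {E : Type*} [AddCommGroup E] [Module (ZMod 2) E] [Finite E]
    [Nontrivial E] (ρ : Representation (ZMod 2) S E) (P : Subgroup S) [P.Normal]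
    (hcomm : ∀ a ∈ P, ∀ b ∈ P, a * b = b * a) (hP2 : ¬ 2 ∣ Nat.card P)
    (hfix : ∀ v : E, (∀ x ∈ P, ρ x v = v) → v = 0)
    (T : Subgroup S) (hT : IsPGroup 2 T) (h : S) (q : ℕ) (hq : q.Prime) (hq2 : q ≠ 2)
    (hh : h ^ q = 1) (hgen : ∀ M : Subgroup S, M ≤ P →
      (∀ x ∈ P, (h * x * h⁻¹) * x⁻¹ ∈ M) → M = P) :
    8 ≤ Nat.card {v : E // ∀ t ∈ T, ρ t v = v} ∨
      (Nat.card {v : E // ∀ t ∈ T, ρ t v = v} = 4 ∧
        ∃ v : E, (∀ t ∈ T, ρ t v = v) ∧ ¬ ∀ t ∈ T, ρ t (ρ h v) = ρ h v) := by
  classical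
  let K := AlgebraicClosure (ZMod 2)
  haveI : CharP K 2 := charP_of_injective_algebraMap (algebraMap (ZMod 2) K).injective 2
  let b := Module.finBasis (ZMod 2) E
  set d := Module.finrank (ZMod 2) E with hd
  let f := algebraMap (ZMod 2) K
  let σ : Representation K S (Fin d → K) :=
    { toFun := fun s => Matrix.toLin' ((LinearMap.toMatrix b b (ρ s)).map f)
      map_one' := by
        rw [map_one, LinearMap.toMatrix_one, Matrix.map_one f (map_zero f) (map_one f),
          Matrix.toLin'_one]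
        rfl
      map_mul' := fun x y => by
        rw [map_mul, LinearMap.toMatrix_mul, Matrix.map_mul, Matrix.toLin'_mul]
        rfl }
  have hσ : ∀ (s : S) (v : Fin d → K) i,
      σ s v i = ∑ j, f (LinearMap.toMatrix b b (ρ s) i j) * v j := fun s v i => rfl
  let coord : (K →ₗ[ZMod 2] ZMod 2) → (Fin d → K) → E := fun c v =>
    b.equivFun.symm fun i => c (v i)
  have hcoord : ∀ c s v, coord c (σ s v) = ρ s (coord c v) := by
    intro c s v
    refine b.equivFun.injective (funext fun i => ?_)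
    simp only [coord, LinearEquiv.apply_symm_apply]
    rw [hσ, map_sum]
    have h1 : b.equivFun (ρ s (b.equivFun.symm fun i => c (v i))) i =
        ∑ j, LinearMap.toMatrix b b (ρ s) i j * c (v j) := by
      have h2 := LinearMap.toMatrix_mulVec_repr b b (ρ s) (b.equivFun.symm fun i => c (v i))
      have h3 := congrFun h2 i
      rw [← Module.Basis.equivFun_apply, LinearEquiv.apply_symm_apply] at h3
      exact h3.symm
    rw [h1]
    refine Finset.sum_congr rfl fun j _ => ?_
    rw [← Algebra.smul_def, map_smul, smul_eq_mul]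
  let emb : E → (Fin d → K) := fun e i => f (b.equivFun e i)
  have hemb : ∀ s e, σ s (emb e) = emb (ρ s e) := by
    intro s e
    funext i
    rw [hσ]
    show _ = f (b.equivFun (ρ s e) i)
    have h3 := congrFun (LinearMap.toMatrix_mulVec_repr b b (ρ s) e) i
    rw [Module.Basis.equivFun_apply, ← h3]
    simp [emb, Matrix.mulVec, dotProduct]
  have hsep : ∀ v w : Fin d → K, (∀ c, coord c v = coord c w) → v = w := by
    intro v w h0
    funext i
    by_contra hne
    obtain ⟨c, hc⟩ : ∃ c : K →ₗ[ZMod 2] ZMod 2, c (v i - w i) ≠ 0 := by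
      by_contra hall
      push Not at hall
      exact hne (sub_eq_zero.1 ((Module.forall_dual_apply_eq_zero_iff (ZMod 2) _).1 hall))
    refine hc ?_
    have := congrFun (b.equivFun.symm.injective (h0 c)) i
    rw [map_sub, this, sub_self]
  let E₀ : Submodule (ZMod 2) E := ⨅ t : T, LinearMap.ker (ρ t - 1)
  have hE₀ : ∀ v, v ∈ E₀ ↔ ∀ t ∈ T, ρ t v = v := fun v => by
    simp [E₀, sub_eq_zero]
  let F : Submodule K (Fin d → K) := ⨅ t : T, LinearMap.ker (σ t - 1)
  have hF : ∀ v, v ∈ F ↔ ∀ t ∈ T, σ t v = v := fun v => by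
    simp [F, sub_eq_zero]
  let e₀ := Module.finBasis (ZMod 2) E₀
  have hFle : F ≤ Submodule.span K (Set.range fun k => emb (e₀ k : E)) := by
    intro v hv
    let B := Module.Basis.ofVectorSpace (ZMod 2) K
    -- finitely many coordinates
    let sup : Finset _ := Finset.univ.biUnion fun i => (B.repr (v i)).support
    have hdec : v = ∑ j ∈ sup, B j • emb (coord (B.coord j) v) := by
      funext i
      rw [Finset.sum_apply]
      conv_lhs => rw [← B.linearCombination_repr (v i)]
      rw [Finsupp.linearCombination_apply, Finsupp.sum_of_support_subset (B.repr (v i))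
        (Finset.subset_biUnion_of_mem (fun i => (B.repr (v i)).support) (Finset.mem_univ i))
        (fun j a => a • B j) (fun j _ => zero_smul (ZMod 2) (B j))]
      refine Finset.sum_congr rfl fun j _ => ?_
      show (B.repr (v i)) j • B j =
        B j * f (b.equivFun (b.equivFun.symm fun i => (B.coord j) (v i)) i)
      rw [LinearEquiv.apply_symm_apply, Algebra.smul_def, mul_comm]
      rfl
    rw [hdec]
    refine Submodule.sum_mem _ fun j _ => Submodule.smul_mem _ _ ?_
    have hmem : coord (B.coord j) v ∈ E₀ := (hE₀ _).2 fun t ht => by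
      rw [← hcoord, (hF v).1 hv t ht]
    have hrep : (⟨_, hmem⟩ : E₀) = ∑ k, e₀.repr ⟨_, hmem⟩ k • e₀ k := (e₀.sum_repr _).symm
    have hrep' := congrArg (fun x : E₀ => (x : E)) hrep
    simp only [Submodule.coe_sum, Submodule.coe_smul] at hrep'
    rw [hrep']
    have : emb (∑ k, e₀.repr ⟨_, hmem⟩ k • (e₀ k : E)) =
        ∑ k, f (e₀.repr ⟨_, hmem⟩ k) • emb (e₀ k : E) := by
      funext i
      simp [emb, Finset.sum_apply]
    rw [this]
    exact Submodule.sum_mem _ fun k _ =>
      Submodule.smul_mem _ _ (Submodule.subset_span ⟨k, rfl⟩)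
  have hrank : Module.finrank K F ≤ Module.finrank (ZMod 2) E₀ := by
    refine (Submodule.finrank_mono hFle).trans ?_
    refine (finrank_range_le_card _).trans ?_
    rw [Fintype.card_fin]
  haveI : Nontrivial (Fin d → K) := by
    haveI : Nonempty (Fin d) := ⟨⟨0, Module.finrank_pos⟩⟩
    infer_instance
  obtain ⟨h2, hmoved⟩ := fixed_space σ P hcomm
    (fun e => hP2 ((CharP.cast_eq_zero_iff K 2 _).1 e))
    (fun v hv => hsep v 0 fun c => by
      have h1 : coord c v = 0 := hfix _ fun x hx => by rw [← hcoord, hv x hx]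
      rw [h1]
      refine (b.equivFun.injective ?_).symm
      funext i
      simp [coord])
    T hT h q hq hq2 hh
    (fun χ hχ => by
      have hM : χ.ker.map P.subtype = P := hgen _ (Subgroup.map_subtype_le _) fun x hx => by
        refine ⟨MulAut.conjNormal h ⟨x, hx⟩ * (⟨x, hx⟩ : P)⁻¹, ?_, ?_⟩
        · show χ _ = 1
          rw [map_mul, map_inv, hχ, mul_inv_cancel]
        · simp
      refine MonoidHom.ext fun x => ?_
      have : (x : S) ∈ χ.ker.map P.subtype := hM.symm ▸ x.2
      obtain ⟨y, hy, hyx⟩ := this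
      exact (Subtype.ext hyx : y = x) ▸ hy)
    F (fun v hv => (hF v).2 hv) (fun v hv => (hF v).1 hv)
  have hcard : Nat.card {v : E // ∀ t ∈ T, ρ t v = v} = 2 ^ Module.finrank (ZMod 2) E₀ := by
    rw [← Nat.card_congr (Equiv.subtypeEquivRight hE₀)]
    show Nat.card E₀ = _
    rw [Module.natCard_eq_pow_finrank (K := ZMod 2), Nat.card_zmod]
  by_cases h3 : 3 ≤ Module.finrank (ZMod 2) E₀
  · left
    rw [hcard]
    calc 8 = 2 ^ 3 := rfl
      _ ≤ _ := Nat.pow_le_pow_right two_pos h3
  · right
    refine ⟨by rw [hcard, show Module.finrank (ZMod 2) E₀ = 2 by omega]; rfl, ?_⟩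
    obtain ⟨w, hw, hwh⟩ := hmoved (by omega)
    by_contra hall
    push Not at hall
    refine hwh ?_
    have hmap : (Submodule.span K (Set.range fun k => emb (e₀ k : E))).map (σ h) ≤ F := by
      rw [Submodule.map_span, Submodule.span_le]
      rintro _ ⟨_, ⟨k, rfl⟩, rfl⟩
      refine (hF _).2 fun t ht => ?_
      show σ t (σ h (emb (e₀ k : E))) = σ h (emb (e₀ k : E))
      rw [hemb, hemb, hall _ ((hE₀ _).1 (e₀ k).2) t ht]
    exact hmap ⟨w, hFle hw, rfl⟩

end Cfsg.Agent.SmallModule
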